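import Mathlib
import Cfsg.Prelude.Def_LocalEven
import Cfsg.Agent.Lib.Helper9.QdBuild
import Cfsg.Agent.Lib.Helper9.Cores
import Cfsg.Agent.Lib.Helper13.QdSylow

/-!
# `Qd(p)` is a counterexample (helper9)

* `qa A c`: the element of `Cfsg.qd p` with linear part `A` and translation `c`, and its calculus.
* `not_controls_of_equiv`: in a group isomorphic to `Qd(p)`, no nontrivial characteristic
  subgroup of a Sylow `p`-subgroup controls strong fusion.
* `not_pstable_of_equiv`: a group isomorphic to `Qd(p)` (`p` odd) is not `p`-stable.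
-/

set_option autoImplicit false
open scoped MatrixGroups

namespace Cfsg.Agent.Lib.Helper9.QdNot

open Cfsg Cfsg.Agent.Lib.Helper9.QdBuild
open Cfsg.Agent.Lib.Helper13.QdSylow Cfsg.Agent.Lib.Helper13.QdAlt

variable {p : ℕ}

/-- the element of `Qd(p)` with linear part `A` and translation `c` -/
def qa (A : Matrix.SpecialLinearGroup (Fin 2) (ZMod p)) (c : Fin 2 → ZMod p) : ↥(Cfsg.qd p) :=
  ⟨aff A c, aff_mem A c⟩

theorem qa_mul (A A' : Matrix.SpecialLinearGroup (Fin 2) (ZMod p)) (c c' : Fin 2 → ZMod p) :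
    qa A c * qa A' c' = qa (A * A') (c + A.1.mulVec c') := Subtype.ext (aff_mul A A' c c')

theorem qa_one : qa (1 : Matrix.SpecialLinearGroup (Fin 2) (ZMod p)) 0 = 1 :=
  Subtype.ext aff_one

theorem exists_qa (x : ↥(Cfsg.qd p)) : ∃ A c, x = qa A c := by
  obtain ⟨A, c, h⟩ := exists_aff x.1 x.2
  exact ⟨A, c, Subtype.ext h⟩

theorem qa_conj (A : Matrix.SpecialLinearGroup (Fin 2) (ZMod p)) (d c : Fin 2 → ZMod p) :
    qa A d * qa 1 c * (qa A d)⁻¹ = qa 1 (A.1.mulVec c) := by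
  rw [mul_inv_eq_iff_eq_mul, qa_mul, qa_mul]
  congr 1
  · rw [mul_one, one_mul]
  · rw [Matrix.SpecialLinearGroup.coe_one, Matrix.one_mulVec, add_comm]

theorem qa_one_eq (v : Fin 2 → ZMod p) : qa 1 v = u 0 (v 0) (v 1) := by
  apply Subtype.ext
  apply Subtype.ext
  show (aff 1 v).1 = (hE 0 (v 0) (v 1)).1
  unfold aff hE
  ext i j
  fin_cases i <;> fin_cases j <;> simp

theorem qa_one_mem_U (v : Fin 2 → ZMod p) : qa 1 v ∈ U p := by
  rw [qa_one_eq]
  exact u_mem _ _ _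

theorem u_eq_qa (e f : ZMod p) : u 0 e f = qa 1 ![e, f] := by
  rw [qa_one_eq]
  rfl

/-- the rotation `!![0, -1; 1, 0]` -/
def wRot : Matrix.SpecialLinearGroup (Fin 2) (ZMod p) :=
  ⟨!![0, -1; 1, 0], by simp [Matrix.det_fin_two]⟩

theorem wRot_mulVec : (wRot (p := p)).1.mulVec ![1, 0] = ![0, 1] := by
  funext i
  fin_cases i <;> simp [wRot, Matrix.mulVec, dotProduct, Fin.sum_univ_two]


/-- **`Qd(p)` and control of fusion.** In a group isomorphic to `Qd(p)`, no nontrivial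
characteristic subgroup of a Sylow `p`-subgroup controls strong fusion. -/
theorem not_controls_of_equiv {X : Type*} [Group X] [Fact p.Prime]
    (e : X ≃* ↥(Cfsg.qd p)) (T : Sylow p X) (W₀ : Subgroup ↥(T : Subgroup X))
    (hne : Nontrivial ↥(T : Subgroup X) → W₀ ≠ ⊥) (hchar : W₀.Characteristic) :
    ¬ Cfsg.ControlsStrongFusion p (W₀.map (T : Subgroup X).subtype) := by
  rintro ⟨T', hWT', hctl⟩
  have hsyl : ∀ T₀ : Sylow p X, ∃ c : ↥(Cfsg.qd p),
      ∀ x : X, x ∈ (T₀ : Subgroup X) ↔ c⁻¹ * e x * c ∈ U p := by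
    intro T₀
    have hr : (T₀ : Subgroup X) ≤ e.symm.toMonoidHom.range := by
      intro x _
      exact ⟨e x, e.symm_apply_apply x⟩
    have hinj : Function.Injective (e.symm.toMonoidHom : ↥(Cfsg.qd p) →* X) := e.symm.injective
    obtain ⟨c, hc⟩ := sylow_mem_iff (T₀.comapOfInjective e.symm.toMonoidHom hinj hr)
    have hco := Sylow.coe_comapOfInjective T₀ e.symm.toMonoidHom hinj hr
    refine ⟨c, fun x => ?_⟩
    rw [← hc (e x), hco, Subgroup.mem_comap]
    show x ∈ (T₀ : Subgroup X) ↔ e.symm (e x) ∈ (T₀ : Subgroup X)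
    rw [e.symm_apply_apply]
  obtain ⟨c, hc⟩ := hsyl T
  obtain ⟨c', hc'⟩ := hsyl T'
  -- the isomorphism of `T` with the unitriangular group
  obtain ⟨κ, hκ⟩ : ∃ κ : ↥(T : Subgroup X) ≃* ↥(U p),
      ∀ t, ((κ t : ↥(U p)) : ↥(Cfsg.qd p)) = c⁻¹ * e t * c := by
    refine ⟨{ toFun := fun t => ⟨c⁻¹ * e t * c, (hc t).mp t.2⟩
              invFun := fun y => ⟨e.symm (c * y * c⁻¹), (hc _).mpr (by
                rw [e.apply_symm_apply]
                have h1 : c⁻¹ * (c * (y : ↥(Cfsg.qd p)) * c⁻¹) * c = y := by group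
                rw [h1]
                exact y.2)⟩
              left_inv := fun t => Subtype.ext (by
                show e.symm (c * (c⁻¹ * e t * c) * c⁻¹) = t
                have h1 : c * (c⁻¹ * e (t : X) * c) * c⁻¹ = e t := by group
                rw [h1, e.symm_apply_apply])
              right_inv := fun y => Subtype.ext (by
                show c⁻¹ * e (e.symm (c * y * c⁻¹)) * c = y
                rw [e.apply_symm_apply]
                group)
              map_mul' := fun s t => Subtype.ext (by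
                show c⁻¹ * e ((s : X) * t) * c = (c⁻¹ * e s * c) * (c⁻¹ * e t * c)
                rw [map_mul]
                group) }, fun t => rfl⟩
  -- `T` is nontrivial
  have hu1 : (u (0 : ZMod p) 1 0) ≠ 1 := by
    intro h
    rw [← u_zero] at h
    exact one_ne_zero (u_inj h).2.1
  have hTnt : Nontrivial ↥(T : Subgroup X) := by
    have hmem : e.symm (c * u 0 1 0 * c⁻¹) ∈ (T : Subgroup X) := by
      rw [hc, e.apply_symm_apply]
      have h1 : c⁻¹ * (c * u (0 : ZMod p) 1 0 * c⁻¹) * c = u 0 1 0 := by group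
      rw [h1]
      exact u_mem _ _ _
    refine ⟨⟨⟨_, hmem⟩, 1, ?_⟩⟩
    intro h
    have h1 : e.symm (c * u 0 1 0 * c⁻¹) = 1 := congrArg Subtype.val h
    have h2 : c * u (0 : ZMod p) 1 0 * c⁻¹ = 1 := by
      have := congrArg e h1
      rwa [e.apply_symm_apply, map_one] at this
    apply hu1
    calc u (0 : ZMod p) 1 0 = c⁻¹ * (c * u 0 1 0 * c⁻¹) * c := by group
      _ = 1 := by rw [h2]; group
  -- the corresponding characteristic subgroup of `U p`
  obtain ⟨T₁, hT₁⟩ : ∃ T₁ : Subgroup ↥(U p), T₁ = W₀.map κ.toMonoidHom := ⟨_, rfl⟩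
  have hT₁ne : T₁ ≠ ⊥ := by
    rw [hT₁]
    intro h
    exact hne hTnt ((Subgroup.map_eq_bot_iff_of_injective _ κ.injective).mp h)
  have hT₁c : T₁.Characteristic := by
    rw [Subgroup.characteristic_iff_map_eq]
    intro φ
    have h1 := Subgroup.characteristic_iff_map_eq.mp hchar ((κ.trans φ).trans κ.symm)
    rw [hT₁, Subgroup.map_map]
    conv_rhs => rw [← h1]
    rw [Subgroup.map_map]
    congr 1
    ext t
    simp
  have hrel : ∀ x : X, x ∈ W₀.map (T : Subgroup X).subtype ↔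
      c⁻¹ * e x * c ∈ T₁.map (U p).subtype := by
    intro x
    constructor
    · rintro ⟨t, ht, rfl⟩
      refine ⟨κ t, ?_, hκ t⟩
      rw [hT₁]
      exact ⟨t, ht, rfl⟩
    · rintro ⟨y, hy, hyx⟩
      rw [hT₁] at hy
      obtain ⟨t, ht, rfl⟩ := hy
      refine ⟨t, ht, ?_⟩
      have h1 : c⁻¹ * e (t : X) * c = c⁻¹ * e x * c := (hκ t).symm.trans hyx
      have h2 : e (t : X) = e x := by
        calc e (t : X) = c * (c⁻¹ * e (t : X) * c) * c⁻¹ := by group
          _ = e x := by rw [h1]; group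
      exact e.injective h2
  have hnorm : ∀ x : X, x ∈ Subgroup.normalizer
      ((W₀.map (T : Subgroup X).subtype : Subgroup X) : Set X) →
      (c⁻¹ * e x * c).1.1 1 0 = 0 := by
    intro x hx
    rw [← mem_normalizer_char T₁ hT₁ne hT₁c, Subgroup.mem_normalizer_iff]
    intro h
    have h1 : h = c⁻¹ * e (e.symm (c * h * c⁻¹)) * c := by
      rw [e.apply_symm_apply]; group
    have h2 : c⁻¹ * e x * c * h * (c⁻¹ * e x * c)⁻¹ =
        c⁻¹ * e (x * e.symm (c * h * c⁻¹) * x⁻¹) * c := by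
      rw [map_mul, map_mul, map_inv, e.apply_symm_apply]; group
    rw [h2]
    conv_lhs => rw [h1]
    rw [← hrel, ← hrel]
    exact Subgroup.mem_normalizer_iff.mp hx _
  -- translations lie in every Sylow subgroup
  have hVT' : ∀ (e₁ f₁ : ZMod p) (d : ↥(Cfsg.qd p)),
      e.symm (d * u 0 e₁ f₁ * d⁻¹) ∈ (T' : Subgroup X) := by
    intro e₁ f₁ d
    rw [hc', e.apply_symm_apply]
    have h1 : c'⁻¹ * (d * u 0 e₁ f₁ * d⁻¹) * c' = (c'⁻¹ * d) * u 0 e₁ f₁ * (c'⁻¹ * d)⁻¹ := by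
      group
    rw [h1, u_eq_qa]
    obtain ⟨A, dd, hA⟩ := exists_qa (c'⁻¹ * d)
    rw [hA, qa_conj]
    exact qa_one_mem_U _
  obtain ⟨a, ha⟩ : ∃ a : X, a = e.symm (c * u 0 1 0 * c⁻¹) := ⟨_, rfl⟩
  obtain ⟨g, hg⟩ : ∃ g : X, g = e.symm (c * qa wRot 0 * c⁻¹) := ⟨_, rfl⟩
  have haT' : a ∈ (T' : Subgroup X) := by rw [ha]; exact hVT' 1 0 c
  have hgag : g * a * g⁻¹ = e.symm (c * u 0 0 1 * c⁻¹) := by
    apply e.injective
    rw [map_mul, map_mul, map_inv, ha, hg, e.apply_symm_apply, e.apply_symm_apply,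
      e.apply_symm_apply]
    have h1 : c * qa wRot 0 * c⁻¹ * (c * u (0 : ZMod p) 1 0 * c⁻¹) * (c * qa wRot 0 * c⁻¹)⁻¹ =
        c * (qa wRot 0 * u 0 1 0 * (qa wRot 0)⁻¹) * c⁻¹ := by group
    rw [h1, u_eq_qa, qa_conj, wRot_mulVec, u_eq_qa]
  obtain ⟨-, hA⟩ := hctl {a} (by
    intro b hb
    rw [Set.mem_singleton_iff] at hb
    rw [hb]
    exact haT')
  obtain ⟨x, hxN, hx⟩ := hA g (by
    rintro _ ⟨b, hb, rfl⟩
    rw [Set.mem_singleton_iff] at hb
    rw [hb]
    show g * a * g⁻¹ ∈ (T' : Subgroup X)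
    rw [hgag]
    exact hVT' 0 1 c)
  have hx' := hx a rfl
  have hy0 := hnorm x hxN
  have hy : (c⁻¹ * e x * c) * u 0 1 0 = u 0 0 1 * (c⁻¹ * e x * c) := by
    have h1 := congrArg e hx'
    rw [hgag, e.apply_symm_apply, map_mul, map_mul, map_inv, ha, e.apply_symm_apply] at h1
    have h2 : u (0 : ZMod p) 0 1 = (c⁻¹ * e x * c) * u 0 1 0 * (c⁻¹ * e x * c)⁻¹ := by
      have h3 : u (0 : ZMod p) 0 1 = c⁻¹ * (c * u 0 0 1 * c⁻¹) * c := by group
      rw [h3, h1]; group
    rw [h2]; group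
  obtain ⟨y, hydef⟩ : ∃ y : ↥(Cfsg.qd p), y = c⁻¹ * e x * c := ⟨_, rfl⟩
  rw [← hydef] at hy0 hy
  obtain ⟨-, -, hy22⟩ := row2 y
  obtain ⟨-, -, hu22⟩ := row2 (u (0 : ZMod p) 1 0)
  have hm := congrArg (fun M : ↥(Cfsg.qd p) => M.1.1 1 2) hy
  simp only [coe_mul2] at hm
  rw [Matrix.mul_apply, Matrix.mul_apply, Fin.sum_univ_three, Fin.sum_univ_three, u_02, u_12,
    hu22, u_10, u_11, u_12, hy22, hy0] at hm
  have h01 : (0 : ZMod p) = 1 := by linear_combination hm
  exact zero_ne_one h01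

end Cfsg.Agent.Lib.Helper9.QdNot
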