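import Mathlib
import Cfsg.Prelude.Def_PLocal
import Cfsg.Prelude.Def_LocalEven
import Cfsg.Agent.Lib.Helper9.QdBuild
import Cfsg.Agent.Lib.Helper9.QdNot

/-!
# Weak `Qd(p)`-data (helper9)

* `onto_qd'`: `QdBuild.onto_qd` for an arbitrary `p`-subgroup `V₀` with a quotient plane.
* `QdDataIn p N Q`: a subgroup `Q₁ ≤ Q` with an additive surjection onto `𝔽_p²` such that every
  element of `SL₂(p)` is induced by conjugation by an element of `N` normalizing `Q₁`.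
* `onto_of_data`, `data_of_onto`: the data exist iff some subgroup maps onto `Qd(p)` (`p` odd).
* `data_map_sub`: push-forward of data along a homomorphism injective on `Q`.
* `exists_centric`: the data can be taken inside the normalizer of a `p`-centric subgroup.
-/

set_option autoImplicit false
open scoped MatrixGroups

namespace Cfsg.Agent.Lib.Helper9.QdData

open Cfsg Cfsg.Agent.Lib.Helper9.QdBuild Cfsg.Agent.Lib.Helper9.QdNot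

theorem onto_qd' {G : Type*} [Group G] {Kg : Type*} [Group Kg] [Finite Kg] {p : ℕ}
    [Fact p.Prime] (hp : p ≠ 2) (V₀ : Subgroup G)
    (hV₀p : ∀ v ∈ V₀, ∃ k : ℕ, v ^ p ^ k = 1)
    (ι : Kg →* G)
    (hnorm : ∀ m, ∀ v ∈ V₀, ι m * v * (ι m)⁻¹ ∈ V₀)
    (ρ : Kg →* Matrix.SpecialLinearGroup (Fin 2) (ZMod p)) (hρ : Function.Surjective ρ)
    (θ₀ : ↥V₀ → Fin 2 → ZMod p)
    (hθadd : ∀ x y, θ₀ (x * y) = θ₀ x + θ₀ y)
    (hθs : Function.Surjective θ₀)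
    (heq : ∀ (m : Kg) (v : ↥V₀),
      θ₀ ⟨ι m * v * (ι m)⁻¹, hnorm m v v.2⟩ = (ρ m).1.mulVec (θ₀ v)) :
    Onto ↥(Cfsg.qd p) G := by
  have hpp : p.Prime := Fact.out
  have h2ne : (2 : ZMod p) ≠ 0 := by
    intro h
    have h' : ((2 : ℕ) : ZMod p) = 0 := by exact_mod_cast h
    rw [ZMod.natCast_eq_zero_iff] at h'
    exact hp ((Nat.prime_dvd_prime_iff_eq hpp Nat.prime_two).mp h')
  have hθ1 : θ₀ 1 = 0 := by
    have h := hθadd 1 1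
    rw [mul_one] at h
    have h2 : θ₀ 1 + 0 = θ₀ 1 + θ₀ 1 := by rw [add_zero]; exact h
    exact (add_left_cancel h2).symm
  have hθinv : ∀ x, θ₀ x⁻¹ = -θ₀ x := by
    intro x
    have h := hθadd x x⁻¹
    rw [mul_inv_cancel, hθ1] at h
    exact (neg_eq_of_add_eq_zero_right h.symm).symm
  -- the preimage of `{±1}`
  let D : Subgroup Kg :=
    { carrier := {k | ρ k = 1 ∨ ρ k = -1}
      mul_mem' := by
        intro a b ha hb
        rcases ha with ha | ha <;> rcases hb with hb | hb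
        · left; rw [map_mul, ha, hb, mul_one]
        · right; rw [map_mul, ha, hb, one_mul]
        · right; rw [map_mul, ha, hb, mul_one]
        · left; rw [map_mul, ha, hb]; simp
      one_mem' := Or.inl (map_one ρ)
      inv_mem' := by
        intro a ha
        rcases ha with ha | ha
        · left; rw [map_inv, ha, inv_one]
        · right; rw [map_inv, ha]; simp }
  have hDmem : ∀ k, k ∈ D ↔ (ρ k = 1 ∨ ρ k = -1) := fun k => Iff.rfl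
  have hDn : D.Normal := by
    refine ⟨fun n hn g => ?_⟩
    rw [hDmem] at hn ⊢
    rcases hn with hn | hn
    · left; rw [map_mul, map_mul, hn, map_inv]; simp
    · right; rw [map_mul, map_mul, hn, map_inv]; simp
  -- a `2`-element `z` with `ρ z = -1`
  obtain ⟨z₀, hz₀⟩ := hρ (-1)
  obtain ⟨k, m, hm, hkm⟩ := Nat.exists_eq_two_pow_mul_odd (orderOf_pos z₀).ne'
  have hzρ : ρ (z₀ ^ m) = -1 := by rw [map_pow, hz₀, hm.neg_one_pow]
  have hz2 : (z₀ ^ m) ^ 2 ^ k = 1 := by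
    rw [← pow_mul, mul_comm, ← hkm, pow_orderOf_eq_one]
  have hzD : z₀ ^ m ∈ D := Or.inr hzρ
  have hzp : IsPGroup 2 (Subgroup.zpowers (⟨z₀ ^ m, hzD⟩ : ↥D)) := by
    rintro ⟨g, hg⟩
    obtain ⟨i, rfl⟩ := Subgroup.mem_zpowers_iff.mp hg
    refine ⟨k, Subtype.ext ?_⟩
    have h1 : ((⟨z₀ ^ m, hzD⟩ : ↥D) ^ i) ^ 2 ^ k = 1 := by
      rw [← zpow_natCast, ← zpow_mul, mul_comm, zpow_mul, zpow_natCast]
      have h2 : (⟨z₀ ^ m, hzD⟩ : ↥D) ^ 2 ^ k = 1 := Subtype.ext (by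
        rw [Subgroup.coe_pow]; exact hz2)
      rw [h2, one_zpow]
    exact h1
  obtain ⟨T, hT⟩ := hzp.exists_le_sylow
  have hzT : (⟨z₀ ^ m, hzD⟩ : ↥D) ∈ (T : Subgroup ↥D) := hT (Subgroup.mem_zpowers _)
  have hfr := Sylow.normalizer_sup_eq_top T
  set T' : Subgroup Kg := Subgroup.map D.subtype ↑T with hT'
  have hzT' : z₀ ^ m ∈ T' := ⟨⟨z₀ ^ m, hzD⟩, hzT, rfl⟩
  have hT'2 : ∀ y ∈ T', ∃ n : ℕ, y ^ 2 ^ n = 1 := by
    rintro y ⟨d, hd, rfl⟩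
    obtain ⟨n, hn⟩ := T.isPGroup' ⟨d, hd⟩
    refine ⟨n, ?_⟩
    have := congrArg (fun t : ↥(T : Subgroup ↥D) => ((t : ↥D) : Kg)) hn
    simpa using this
  set M' : Subgroup Kg := Subgroup.normalizer (T' : Set Kg) with hM'
  have hzM' : z₀ ^ m ∈ M' := Subgroup.le_normalizer hzT'
  refine onto_qd_of_compat V₀ (ι.comp M'.subtype) (fun m v hv => hnorm m.1 v hv)
    (ρ.comp M'.subtype) ?_ θ₀ hθadd hθs (fun m v => heq m.1 v) ?_
  · intro A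
    obtain ⟨x, rfl⟩ := hρ A
    have hx : x ∈ ((M' ⊔ D : Subgroup Kg) : Set Kg) := by
      rw [hfr]; trivial
    rw [Subgroup.mul_normal] at hx
    obtain ⟨n, hn, d, hd, rfl⟩ := hx
    rcases hd with hd | hd
    · refine ⟨⟨n, hn⟩, ?_⟩
      show ρ n = ρ (n * d)
      rw [map_mul, hd, mul_one]
    · refine ⟨⟨n * z₀ ^ m, M'.mul_mem hn hzM'⟩, ?_⟩
      show ρ (n * z₀ ^ m) = ρ (n * d)
      rw [map_mul, map_mul, hd, hzρ]
  · rintro ⟨x, hxM⟩ hxV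
    have hxV' : ι x ∈ V₀ := hxV
    constructor
    · have hfix : ∀ c, (ρ x).1.mulVec c = c := by
        intro c
        obtain ⟨v, rfl⟩ := hθs c
        rw [← heq x v]
        have h1 : (⟨ι x * v * (ι x)⁻¹, hnorm x v v.2⟩ : ↥V₀) =
            (⟨ι x, hxV'⟩ : ↥V₀) * v * (⟨ι x, hxV'⟩ : ↥V₀)⁻¹ := Subtype.ext rfl
        rw [h1, hθadd, hθadd, hθinv]
        abel
      apply Subtype.ext
      show (ρ x).1 = 1
      ext i j
      have := congrFun (hfix (Pi.single j 1)) i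
      simpa [Matrix.mulVec_single, Matrix.one_apply, Pi.single_apply, eq_comm] using this
    · -- the commutator `[x, z]` is a `2`-element mapping into `V₀`
      set z := z₀ ^ m with hz
      have hy : x * z * x⁻¹ * z⁻¹ ∈ T' := by
        have h1 : x * z * x⁻¹ ∈ T' := (Subgroup.mem_normalizer_iff.mp hxM z).mp hzT'
        exact T'.mul_mem h1 (T'.inv_mem hzT')
      obtain ⟨n, hn⟩ := hT'2 _ hy
      have hιy : ι (x * z * x⁻¹ * z⁻¹) ∈ V₀ := by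
        have h1 : ι z * (ι x)⁻¹ * (ι z)⁻¹ ∈ V₀ := hnorm z _ (V₀.inv_mem hxV')
        have h2 : ι (x * z * x⁻¹ * z⁻¹) = ι x * (ι z * (ι x)⁻¹ * (ι z)⁻¹) := by
          simp [mul_assoc]
        rw [h2]
        exact V₀.mul_mem hxV' h1
      have hιy1 : ι (x * z * x⁻¹ * z⁻¹) = 1 := by
        obtain ⟨kk, hkk⟩ := hV₀p _ hιy
        have h1 : orderOf (ι (x * z * x⁻¹ * z⁻¹)) ∣ p ^ kk := orderOf_dvd_of_pow_eq_one hkk
        have h2 : orderOf (ι (x * z * x⁻¹ * z⁻¹)) ∣ 2 ^ n := by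
          apply orderOf_dvd_of_pow_eq_one
          rw [← map_pow, hn, map_one]
        have hcop : Nat.Coprime (p ^ kk) (2 ^ n) := by
          apply Nat.Coprime.pow
          rw [Nat.coprime_primes hpp Nat.prime_two]
          exact hp
        have h3 : orderOf (ι (x * z * x⁻¹ * z⁻¹)) ∣ 1 := by
          have := Nat.dvd_gcd h1 h2
          rwa [hcop.gcd_eq_one] at this
        exact orderOf_eq_one_iff.mp (Nat.dvd_one.mp h3)
      have hcomm : ι z * ι x * (ι z)⁻¹ = ι x := by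
        have h2 : ι (x * z * x⁻¹ * z⁻¹) = ι x * ι z * (ι x)⁻¹ * (ι z)⁻¹ := by
          simp
        rw [h2] at hιy1
        have h3 : ι x * ι z = ι z * ι x := by
          have h4 := congrArg (fun t => t * ι z * ι x) hιy1
          simpa [mul_assoc] using h4
        rw [← h3, mul_inv_cancel_right]
      have h5 := heq z ⟨ι x, hxV'⟩
      have h6 : (⟨ι z * (⟨ι x, hxV'⟩ : ↥V₀) * (ι z)⁻¹, hnorm z _ hxV'⟩ : ↥V₀) = ⟨ι x, hxV'⟩ :=
        Subtype.ext hcomm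
      rw [h6, hzρ] at h5
      have h7 : θ₀ ⟨ι x, hxV'⟩ = - θ₀ ⟨ι x, hxV'⟩ :=
        h5.trans (by simp [Matrix.neg_mulVec])
      show θ₀ ⟨ι x, hxV'⟩ = 0
      funext i
      have h8 := congrFun h7 i
      rw [Pi.neg_apply] at h8
      have h9 : (2 : ZMod p) * θ₀ ⟨ι x, hxV'⟩ i = 0 := by linear_combination h8
      rcases mul_eq_zero.mp h9 with h | h
      · exact absurd h h2ne
      · exact h



/-- weak `Qd(p)`-data: a subgroup `Q₁ ≤ Q` with an additive surjection `θ` onto `𝔽_p²` such that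
every element of `SL₂(p)` is induced (through `θ`) by an element of `N` normalizing `Q₁`. -/
def QdDataIn (p : ℕ) {X : Type*} [Group X] (N Q : Subgroup X) : Prop :=
  ∃ (Q₁ : Subgroup X) (θ : ↥Q₁ → Fin 2 → ZMod p), Q₁ ≤ Q ∧ (∀ v ∈ Q₁, ∃ k : ℕ, v ^ p ^ k = 1) ∧
    (∀ x y, θ (x * y) = θ x + θ y) ∧ Function.Surjective θ ∧
    ∀ A : Matrix.SpecialLinearGroup (Fin 2) (ZMod p), ∃ g ∈ N,
      ∃ hg : ∀ v ∈ Q₁, g * v * g⁻¹ ∈ Q₁,
        ∀ v : ↥Q₁, θ ⟨g * v * g⁻¹, hg v v.2⟩ = A.1.mulVec (θ v)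

theorem conj_inv_mem {X : Type*} [Group X] [Finite X] (Q₁ : Subgroup X) (g : X)
    (hg : ∀ v ∈ Q₁, g * v * g⁻¹ ∈ Q₁) : ∀ v ∈ Q₁, g⁻¹ * v * g ∈ Q₁ := by
  intro v hv
  let f : ↥Q₁ → ↥Q₁ := fun w => ⟨g * w * g⁻¹, hg w w.2⟩
  have hinj : Function.Injective f := by
    intro a b hab
    have h1 : g * (a : X) * g⁻¹ = g * (b : X) * g⁻¹ := congrArg Subtype.val hab
    exact Subtype.ext (mul_left_cancel (mul_right_cancel h1))
  obtain ⟨w, hw⟩ := (Finite.injective_iff_surjective.mp hinj) ⟨v, hv⟩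
  have h1 : g * (w : X) * g⁻¹ = v := congrArg Subtype.val hw
  have h2 : g⁻¹ * v * g = w := by rw [← h1]; group
  rw [h2]
  exact w.2

theorem mulVec_unique {p : ℕ} (A A' : Matrix.SpecialLinearGroup (Fin 2) (ZMod p))
    (h : ∀ c, A.1.mulVec c = A'.1.mulVec c) : A = A' := by
  apply Subtype.ext
  ext i j
  have := congrFun (h (Pi.single j 1)) i
  simpa [Matrix.mulVec_single] using this

/-- **data give `Qd(p)`** (`p` odd). -/
theorem onto_of_data {X : Type*} [Group X] [Finite X] {p : ℕ} [Fact p.Prime] (hp : p ≠ 2)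
    {N Q : Subgroup X} (h : QdDataIn p N Q) : Onto ↥(Cfsg.qd p) X := by
  obtain ⟨Q₁, θ, -, hQ₁p, hadd, hsurj, hA⟩ := h
  have huniq : ∀ A A' : Matrix.SpecialLinearGroup (Fin 2) (ZMod p),
      (∀ v : ↥Q₁, A.1.mulVec (θ v) = A'.1.mulVec (θ v)) → A = A' := by
    intro A A' h
    apply mulVec_unique
    intro c
    obtain ⟨v, rfl⟩ := hsurj c
    exact h v
  -- the acting group
  obtain ⟨Kg, hKg⟩ : ∃ Kg : Subgroup X, ∀ g, g ∈ Kg ↔ ((∀ v ∈ Q₁, g * v * g⁻¹ ∈ Q₁) ∧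
      ∃ A : Matrix.SpecialLinearGroup (Fin 2) (ZMod p),
        ∀ (v : ↥Q₁) (h : g * v * g⁻¹ ∈ Q₁), θ ⟨g * v * g⁻¹, h⟩ = A.1.mulVec (θ v)) := by
    refine ⟨{ carrier := {g | (∀ v ∈ Q₁, g * v * g⁻¹ ∈ Q₁) ∧
                ∃ A : Matrix.SpecialLinearGroup (Fin 2) (ZMod p),
                  ∀ (v : ↥Q₁) (h : g * v * g⁻¹ ∈ Q₁), θ ⟨g * v * g⁻¹, h⟩ = A.1.mulVec (θ v)}
              mul_mem' := ?_
              one_mem' := ?_
              inv_mem' := ?_ }, fun g => Iff.rfl⟩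
    · rintro a b ⟨ha, A, hA'⟩ ⟨hb, B, hB'⟩
      have hab : ∀ v ∈ Q₁, a * b * v * (a * b)⁻¹ ∈ Q₁ := by
        intro v hv
        have h1 := ha _ (hb v hv)
        have e : a * b * v * (a * b)⁻¹ = a * (b * v * b⁻¹) * a⁻¹ := by group
        rw [e]
        exact h1
      refine ⟨hab, A * B, ?_⟩
      intro v h
      have e : (⟨a * b * v * (a * b)⁻¹, h⟩ : ↥Q₁) =
          ⟨a * ((⟨b * v * b⁻¹, hb v v.2⟩ : ↥Q₁) : X) * a⁻¹, ha _ (hb v v.2)⟩ :=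
        Subtype.ext (by group)
      rw [e, hA' _ _, hB' _ _, Matrix.SpecialLinearGroup.coe_mul, Matrix.mulVec_mulVec]
    · refine ⟨fun v hv => by simpa using hv, 1, fun v h => ?_⟩
      have e : (⟨1 * (v : X) * 1⁻¹, h⟩ : ↥Q₁) = v := Subtype.ext (by simp)
      rw [e, Matrix.SpecialLinearGroup.coe_one, Matrix.one_mulVec]
    · rintro a ⟨ha, A, hA'⟩
      have hinv := conj_inv_mem Q₁ a ha
      have hinv' : ∀ v ∈ Q₁, a⁻¹ * v * a⁻¹⁻¹ ∈ Q₁ := by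
        intro v hv
        rw [inv_inv]
        exact hinv v hv
      refine ⟨hinv', A⁻¹, ?_⟩
      intro v h
      have e1 : a * ((⟨a⁻¹ * v * a⁻¹⁻¹, h⟩ : ↥Q₁) : X) * a⁻¹ = v := by group
      have h2 := hA' ⟨a⁻¹ * v * a⁻¹⁻¹, h⟩ (by rw [e1]; exact v.2)
      have e2 : (⟨a * ((⟨a⁻¹ * v * a⁻¹⁻¹, h⟩ : ↥Q₁) : X) * a⁻¹, by rw [e1]; exact v.2⟩ : ↥Q₁) = v :=
        Subtype.ext e1
      rw [e2] at h2
      rw [h2, Matrix.mulVec_mulVec, ← Matrix.SpecialLinearGroup.coe_mul, inv_mul_cancel,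
        Matrix.SpecialLinearGroup.coe_one, Matrix.one_mulVec]
  have hKgn : ∀ (g : ↥Kg), ∀ v ∈ Q₁, (g : X) * v * (g : X)⁻¹ ∈ Q₁ := fun g =>
    ((hKg g).mp g.2).1
  have hKgA : ∀ g : ↥Kg, ∃ A : Matrix.SpecialLinearGroup (Fin 2) (ZMod p),
      ∀ (v : ↥Q₁) (h : (g : X) * v * (g : X)⁻¹ ∈ Q₁),
        θ ⟨(g : X) * v * (g : X)⁻¹, h⟩ = A.1.mulVec (θ v) := fun g => ((hKg g).mp g.2).2
  choose ρf hρf using hKgA
  have hρmul : ∀ a b, ρf (a * b) = ρf a * ρf b := by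
    intro a b
    apply huniq
    intro v
    rw [← hρf (a * b) v (hKgn (a * b) v v.2)]
    have e : (⟨((a * b : ↥Kg) : X) * v * ((a * b : ↥Kg) : X)⁻¹, hKgn (a * b) v v.2⟩ : ↥Q₁) =
        ⟨(a : X) * ((⟨(b : X) * v * (b : X)⁻¹, hKgn b v v.2⟩ : ↥Q₁) : X) * (a : X)⁻¹,
          hKgn a _ (hKgn b v v.2)⟩ := Subtype.ext (by
      show ((a : X) * (b : X)) * v * ((a : X) * (b : X))⁻¹ = (a : X) * ((b : X) * v * (b : X)⁻¹) * (a : X)⁻¹
      group)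
    rw [e, hρf a _ _, hρf b _ _, Matrix.SpecialLinearGroup.coe_mul, Matrix.mulVec_mulVec]
  have hρs : Function.Surjective (MonoidHom.mk' ρf hρmul) := by
    intro A
    obtain ⟨g, -, hg, hgA⟩ := hA A
    have hgK : g ∈ Kg := (hKg g).mpr ⟨hg, A, fun v h => hgA v⟩
    refine ⟨⟨g, hgK⟩, ?_⟩
    apply huniq
    intro v
    show (ρf ⟨g, hgK⟩).1.mulVec (θ v) = A.1.mulVec (θ v)
    rw [← hρf ⟨g, hgK⟩ v (hg v v.2), ← hgA v]
  exact onto_qd' hp Q₁ hQ₁p Kg.subtype (fun m v hv => hKgn m v hv) (MonoidHom.mk' ρf hρmul) hρs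
    θ hadd hsurj (fun m v => hρf m v _)


/-- the translation subgroup of `Qd(p)` -/
def Vt (p : ℕ) : Subgroup ↥(Cfsg.qd p) where
  carrier := {x | ∃ c, x = qa 1 c}
  mul_mem' := by
    rintro _ _ ⟨c, rfl⟩ ⟨c', rfl⟩
    refine ⟨c + c', ?_⟩
    rw [qa_mul, mul_one, Matrix.SpecialLinearGroup.coe_one, Matrix.one_mulVec]
  one_mem' := ⟨0, qa_one.symm⟩
  inv_mem' := by
    rintro _ ⟨c, rfl⟩
    refine ⟨-c, inv_eq_of_mul_eq_one_right ?_⟩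
    rw [qa_mul, mul_one, Matrix.SpecialLinearGroup.coe_one, Matrix.one_mulVec, add_neg_cancel,
      qa_one]

/-- the translation part of an element of `Qd(p)` -/
def trans {p : ℕ} (x : ↥(Cfsg.qd p)) : Fin 2 → ZMod p := ![x.1.1 0 2, x.1.1 1 2]

theorem trans_qa {p : ℕ} (A : Matrix.SpecialLinearGroup (Fin 2) (ZMod p)) (c : Fin 2 → ZMod p) :
    trans (qa A c) = c := by
  funext i
  fin_cases i <;> simp [trans, qa, aff]

theorem qa_entry {p : ℕ} (A : Matrix.SpecialLinearGroup (Fin 2) (ZMod p)) (c : Fin 2 → ZMod p)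
    (i j : Fin 2) : (qa A c).1.1 (Fin.castSucc i) (Fin.castSucc j) = A.1 i j := by
  fin_cases i <;> fin_cases j <;> simp [qa, aff]

theorem qa_inj {p : ℕ} {A A' : Matrix.SpecialLinearGroup (Fin 2) (ZMod p)}
    {c c' : Fin 2 → ZMod p} (h : qa A c = qa A' c') : A = A' ∧ c = c' := by
  constructor
  · apply Subtype.ext
    ext i j
    rw [← qa_entry A c, h, qa_entry]
  · rw [← trans_qa A c, h, trans_qa]

/-- **`Qd(p)` gives data** (Frattini argument). -/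
theorem data_of_onto {X : Type*} [Group X] [Finite X] {p : ℕ} [Fact p.Prime]
    (h : Onto ↥(Cfsg.qd p) X) : QdDataIn p (⊤ : Subgroup X) ⊤ := by
  obtain ⟨K, φ, hφ⟩ := h
  have hVtn : (Vt p).Normal := by
    refine ⟨fun n hn g => ?_⟩
    obtain ⟨c, rfl⟩ := hn
    obtain ⟨A, d, rfl⟩ := exists_qa g
    exact ⟨_, qa_conj A d c⟩
  have hVtp : IsPGroup p ↥(Vt p) :=
    (Cfsg.Agent.Lib.Helper13.QdSylow.isPGroup_U (p := p)).to_le (fun x hx => by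
      obtain ⟨c, rfl⟩ := hx
      exact qa_one_mem_U c)
  obtain ⟨Vh, hVh⟩ : ∃ Vh : Subgroup ↥K, Vh = (Vt p).comap φ := ⟨_, rfl⟩
  have hVhmem : ∀ x : ↥K, x ∈ Vh ↔ φ x ∈ Vt p := by
    intro x
    rw [hVh]
    rfl
  haveI hVhn : Vh.Normal := by
    rw [hVh]
    exact hVtn.comap φ
  obtain ⟨P₁⟩ : Nonempty (Sylow p ↥Vh) := inferInstance
  have hFr := Sylow.normalizer_sup_eq_top P₁
  obtain ⟨ρ', hρ'⟩ : ∃ ρ' : ↥Vh →* ↥(Vt p),
      ∀ x, ((ρ' x : ↥(Vt p)) : ↥(Cfsg.qd p)) = φ (x : ↥K) :=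
    ⟨(φ.comp Vh.subtype).codRestrict (Vt p) (fun x => (hVhmem _).mp x.2), fun _ => rfl⟩
  have hρ's : Function.Surjective ρ' := by
    rintro ⟨y, hy⟩
    obtain ⟨k, rfl⟩ := hφ y
    exact ⟨⟨k, (hVhmem k).mpr hy⟩, Subtype.ext (hρ' _)⟩
  have hcover : ∀ y : ↥(Vt p), ∃ x ∈ (P₁ : Subgroup ↥Vh), ρ' x = y := by
    intro y
    have h1 := (P₁.mapSurjective hρ's).is_maximal' (hVtp.to_subgroup ⊤) le_top
    have h2 : y ∈ ((P₁.mapSurjective hρ's : Sylow p ↥(Vt p)) : Subgroup ↥(Vt p)) := by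
      rw [← h1]
      exact Subgroup.mem_top y
    rw [Sylow.coe_mapSurjective] at h2
    exact h2
  obtain ⟨Q₀, hQ₀⟩ : ∃ Q₀ : Subgroup ↥K, Q₀ = (P₁ : Subgroup ↥Vh).map Vh.subtype := ⟨_, rfl⟩
  rw [← hQ₀] at hFr
  have hQ₀V : ∀ y ∈ Q₀, ∃ c, φ y = qa 1 c := by
    intro y hy
    rw [hQ₀] at hy
    obtain ⟨x, -, rfl⟩ := hy
    exact (hVhmem _).mp x.2
  have hQ₁K : Q₀.map K.subtype ≤ K := Subgroup.map_subtype_le _
  have hmem : ∀ (x : X) (hx : x ∈ Q₀.map K.subtype), (⟨x, hQ₁K hx⟩ : ↥K) ∈ Q₀ := by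
    intro x hx
    obtain ⟨y, hy, hyx⟩ := hx
    have e : (⟨x, hQ₁K ⟨y, hy, hyx⟩⟩ : ↥K) = y := Subtype.ext hyx.symm
    rw [e]
    exact hy
  refine ⟨Q₀.map K.subtype, fun y => trans (φ ⟨y.1, hQ₁K y.2⟩), le_top, ?_, ?_, ?_, ?_⟩
  · rintro _ ⟨y, hy, rfl⟩
    rw [hQ₀] at hy
    obtain ⟨x, hx, rfl⟩ := hy
    obtain ⟨k, hk⟩ := P₁.isPGroup' ⟨x, hx⟩
    refine ⟨k, ?_⟩
    have := congrArg (fun t : ↥(P₁ : Subgroup ↥Vh) => (((t : ↥Vh) : ↥K) : X)) hk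
    simpa using this
  · intro x y
    obtain ⟨c, hc⟩ := hQ₀V _ (hmem x.1 x.2)
    obtain ⟨c', hc'⟩ := hQ₀V _ (hmem y.1 y.2)
    have e : (⟨((x * y : ↥(Q₀.map K.subtype)) : X), hQ₁K (x * y).2⟩ : ↥K) =
        ⟨x.1, hQ₁K x.2⟩ * ⟨y.1, hQ₁K y.2⟩ := Subtype.ext rfl
    show trans (φ ⟨((x * y : ↥(Q₀.map K.subtype)) : X), hQ₁K (x * y).2⟩) =
      trans (φ ⟨x.1, hQ₁K x.2⟩) + trans (φ ⟨y.1, hQ₁K y.2⟩)
    rw [e, map_mul, hc, hc', qa_mul, trans_qa, trans_qa, trans_qa,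
      Matrix.SpecialLinearGroup.coe_one, Matrix.one_mulVec]
  · intro c
    obtain ⟨x, hx, hxc⟩ := hcover ⟨qa 1 c, c, rfl⟩
    have hy : ((x : ↥Vh) : ↥K) ∈ Q₀ := by
      rw [hQ₀]
      exact ⟨x, hx, rfl⟩
    refine ⟨⟨(((x : ↥Vh) : ↥K) : X), ⟨_, hy, rfl⟩⟩, ?_⟩
    show trans (φ ⟨(((x : ↥Vh) : ↥K) : X), _⟩) = c
    have e : (⟨(((x : ↥Vh) : ↥K) : X), hQ₁K ⟨_, hy, rfl⟩⟩ : ↥K) = ((x : ↥Vh) : ↥K) := Subtype.ext rfl
    rw [e, ← hρ', hxc, trans_qa]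
  · intro A
    obtain ⟨k, hk⟩ := hφ (qa A 0)
    have hk' : k ∈ ((Subgroup.normalizer (Q₀ : Set ↥K) ⊔ Vh : Subgroup ↥K) : Set ↥K) := by
      rw [hFr]
      exact Subgroup.mem_top k
    rw [Subgroup.mul_normal] at hk'
    obtain ⟨n, hn, v₀, hv₀, hnv⟩ := Set.mem_mul.mp hk'
    obtain ⟨c₀, hc₀⟩ := (hVhmem v₀).mp hv₀
    obtain ⟨A', d, hA'⟩ := exists_qa (φ n)
    have hAA' : A' = A := by
      have h1 : φ k = qa A' d * qa 1 c₀ := by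
        rw [← hnv]
        show φ (n * v₀) = _
        rw [map_mul, hA', hc₀]
      rw [hk, qa_mul, mul_one] at h1
      exact (qa_inj h1).1.symm
    rw [hAA'] at hA'
    have hg : ∀ v ∈ Q₀.map K.subtype, (n : X) * v * (n : X)⁻¹ ∈ Q₀.map K.subtype := by
      rintro _ ⟨y, hy, rfl⟩
      exact ⟨n * y * n⁻¹, (Subgroup.mem_normalizer_iff.mp hn y).mp hy, rfl⟩
    refine ⟨(n : X), Subgroup.mem_top _, hg, ?_⟩
    intro v
    obtain ⟨c, hc⟩ := hQ₀V _ (hmem v.1 v.2)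
    have e : (⟨(n : X) * v * (n : X)⁻¹, hQ₁K (hg v v.2)⟩ : ↥K) =
        n * ⟨v.1, hQ₁K v.2⟩ * n⁻¹ := Subtype.ext rfl
    show trans (φ ⟨(n : X) * v * (n : X)⁻¹, _⟩) = A.1.mulVec (trans (φ ⟨v.1, hQ₁K v.2⟩))
    rw [e, map_mul, map_mul, map_inv, hA', hc, qa_conj, trans_qa, trans_qa]


/-- push-forward of data along a homomorphism from a subgroup which is injective on `Q` -/
theorem data_map_sub {G Y : Type*} [Group G] [Group Y] {p : ℕ} (H : Subgroup G) (f : ↥H →* Y)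
    {N Q : Subgroup G} (hNH : N ≤ H) (hQH : Q ≤ H)
    (hinj : ∀ x (hx : x ∈ H), x ∈ Q → f ⟨x, hx⟩ = 1 → x = 1) (h : QdDataIn p N Q) :
    QdDataIn p (⊤ : Subgroup Y) ⊤ := by
  obtain ⟨Q₁, θ, hQ₁Q, hQ₁p, hadd, hsurj, hA⟩ := h
  have hQ₁H : Q₁ ≤ H := hQ₁Q.trans hQH
  obtain ⟨Qb, hQb⟩ : ∃ Qb : Subgroup Y, ∀ y, y ∈ Qb ↔ ∃ x, ∃ hx : x ∈ Q₁, f ⟨x, hQ₁H hx⟩ = y := by
    refine ⟨(Q₁.subgroupOf H).map f, fun y => ?_⟩
    constructor
    · rintro ⟨x, hx, rfl⟩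
      exact ⟨x.1, Subgroup.mem_subgroupOf.mp hx, rfl⟩
    · rintro ⟨x, hx, rfl⟩
      exact ⟨⟨x, hQ₁H hx⟩, Subgroup.mem_subgroupOf.mpr hx, rfl⟩
  have huniq : ∀ (x x' : ↥Q₁), f ⟨x.1, hQ₁H x.2⟩ = f ⟨x'.1, hQ₁H x'.2⟩ → x = x' := by
    intro x x' h
    have h1 : f ((⟨x.1, hQ₁H x.2⟩ : ↥H)⁻¹ * ⟨x'.1, hQ₁H x'.2⟩) = 1 := by
      rw [map_mul, map_inv, h, inv_mul_cancel]
    have h2 := hinj ((x.1)⁻¹ * x'.1) (H.mul_mem (H.inv_mem (hQ₁H x.2)) (hQ₁H x'.2))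
      (hQ₁Q (Q₁.mul_mem (Q₁.inv_mem x.2) x'.2)) h1
    exact Subtype.ext (inv_mul_eq_one.mp h2)
  have hex : ∀ y : ↥Qb, ∃ x : ↥Q₁, f ⟨x.1, hQ₁H x.2⟩ = y := fun y => by
    obtain ⟨x, hx, h⟩ := (hQb y.1).mp y.2
    exact ⟨⟨x, hx⟩, h⟩
  choose s hs using hex
  have hs_of : ∀ (x : ↥Q₁) (y : ↥Qb), f ⟨x.1, hQ₁H x.2⟩ = y → s y = x := fun x y h =>
    huniq _ _ ((hs y).trans h.symm)
  refine ⟨Qb, fun y => θ (s y), le_top, ?_, ?_, ?_, ?_⟩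
  · intro y hy
    obtain ⟨x, hx, rfl⟩ := (hQb y).mp hy
    obtain ⟨k, hk⟩ := hQ₁p x hx
    refine ⟨k, ?_⟩
    rw [← map_pow]
    have h1 : (⟨x, hQ₁H hx⟩ : ↥H) ^ p ^ k = 1 := Subtype.ext (by
      rw [Subgroup.coe_pow]
      exact hk)
    rw [h1, map_one]
  · intro y y'
    have h1 : s (y * y') = s y * s y' := by
      apply hs_of
      have e : (⟨((s y * s y' : ↥Q₁) : G), hQ₁H (s y * s y').2⟩ : ↥H) =
          ⟨(s y).1, hQ₁H (s y).2⟩ * ⟨(s y').1, hQ₁H (s y').2⟩ := Subtype.ext rfl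
      rw [e, map_mul, hs, hs]
      rfl
    show θ (s (y * y')) = θ (s y) + θ (s y')
    rw [h1, hadd]
  · intro c
    obtain ⟨x, rfl⟩ := hsurj c
    refine ⟨⟨f ⟨x.1, hQ₁H x.2⟩, (hQb _).mpr ⟨x.1, x.2, rfl⟩⟩, ?_⟩
    show θ (s _) = θ x
    rw [hs_of x _ rfl]
  · intro A
    obtain ⟨g, hgN, hg, hgA⟩ := hA A
    have hgH : g ∈ H := hNH hgN
    have hgb : ∀ v ∈ Qb, f ⟨g, hgH⟩ * v * (f ⟨g, hgH⟩)⁻¹ ∈ Qb := by
      intro v hv
      obtain ⟨x, hx, rfl⟩ := (hQb v).mp hv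
      refine (hQb _).mpr ⟨g * x * g⁻¹, hg x hx, ?_⟩
      have e : (⟨g * x * g⁻¹, hQ₁H (hg x hx)⟩ : ↥H) =
          ⟨g, hgH⟩ * ⟨x, hQ₁H hx⟩ * (⟨g, hgH⟩ : ↥H)⁻¹ := Subtype.ext rfl
      rw [e, map_mul, map_mul, map_inv]
    refine ⟨f ⟨g, hgH⟩, Subgroup.mem_top _, hgb, ?_⟩
    intro v
    have h1 : s ⟨f ⟨g, hgH⟩ * v * (f ⟨g, hgH⟩)⁻¹, hgb v v.2⟩ =
        ⟨g * (s v).1 * g⁻¹, hg _ (s v).2⟩ := by
      apply hs_of
      have e : (⟨g * (s v).1 * g⁻¹, hQ₁H (hg _ (s v).2)⟩ : ↥H) =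
          ⟨g, hgH⟩ * ⟨(s v).1, hQ₁H (s v).2⟩ * (⟨g, hgH⟩ : ↥H)⁻¹ := Subtype.ext rfl
      show f ⟨g * (s v).1 * g⁻¹, _⟩ = f ⟨g, hgH⟩ * v * (f ⟨g, hgH⟩)⁻¹
      rw [e, map_mul, map_mul, map_inv, hs]
    show θ (s ⟨_, _⟩) = A.1.mulVec (θ (s v))
    rw [h1, hgA]

theorem mem_normalizer_sup {G : Type*} [Group G] (A B : Subgroup G) (x : G)
    (hA : ∀ v ∈ A, x * v * x⁻¹ ∈ A) (hA' : ∀ v ∈ A, x⁻¹ * v * x ∈ A)
    (hB : ∀ v ∈ B, x * v * x⁻¹ ∈ B) (hB' : ∀ v ∈ B, x⁻¹ * v * x ∈ B) :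
    x ∈ Subgroup.normalizer ((A ⊔ B : Subgroup G) : Set G) := by
  have key : ∀ y : G, (∀ v ∈ A, y * v * y⁻¹ ∈ A) → (∀ v ∈ B, y * v * y⁻¹ ∈ B) →
      ∀ v ∈ A ⊔ B, y * v * y⁻¹ ∈ A ⊔ B := by
    intro y hyA hyB v hv
    have hle : A ⊔ B ≤ (A ⊔ B).comap (MulAut.conj y).toMonoidHom := by
      apply sup_le
      · intro a ha
        exact Subgroup.mem_sup_left (hyA a ha)
      · intro b hb
        exact Subgroup.mem_sup_right (hyB b hb)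
    exact hle hv
  rw [Subgroup.mem_normalizer_iff]
  intro v
  refine ⟨key x hA hB v, fun h => ?_⟩
  have h1 := key x⁻¹ (by simpa using hA') (by simpa using hB') _ h
  have e : x⁻¹ * (x * v * x⁻¹) * x⁻¹⁻¹ = v := by group
  rwa [e] at h1

/-- **centric enlargement**: the data can be taken in the normalizer of a `p`-centric
subgroup. -/
theorem exists_centric {G : Type*} [Group G] [Finite G] {p : ℕ} [Fact p.Prime]
    (h : QdDataIn p (⊤ : Subgroup G) ⊤) :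
    ∃ Q : Subgroup G, IsPGroup p ↥Q ∧
      (∀ x ∈ Subgroup.centralizer (Q : Set G), (∃ k : ℕ, x ^ p ^ k = 1) → x ∈ Q) ∧
      QdDataIn p (Subgroup.normalizer (Q : Set G)) Q := by
  obtain ⟨Q₁, θ, -, hQ₁p, hadd, hsurj, hA⟩ := h
  have hQ₁pg : IsPGroup p ↥Q₁ := by
    rintro ⟨v, hv⟩
    obtain ⟨k, hk⟩ := hQ₁p v hv
    exact ⟨k, Subtype.ext (by rw [Subgroup.coe_pow]; exact hk)⟩
  obtain ⟨N₁, hN₁⟩ : ∃ N₁ : Subgroup G, N₁ = Subgroup.normalizer (Q₁ : Set G) := ⟨_, rfl⟩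
  obtain ⟨C, hC⟩ : ∃ C : Subgroup G, C = Subgroup.centralizer (Q₁ : Set G) := ⟨_, rfl⟩
  have hCmem : ∀ x, x ∈ C ↔ ∀ v ∈ Q₁, v * x = x * v := by
    intro x
    rw [hC, Subgroup.mem_centralizer_iff]
    rfl
  have hN₁mem : ∀ x, x ∈ N₁ ↔ ∀ v, v ∈ Q₁ ↔ x * v * x⁻¹ ∈ Q₁ := by
    intro x
    rw [hN₁, Subgroup.mem_normalizer_iff]
  have hCN : C ≤ N₁ := by
    intro x hx
    rw [hN₁mem]
    intro v
    have key : ∀ w ∈ Q₁, x * w * x⁻¹ = w := by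
      intro w hw
      rw [← (hCmem x).mp hx w hw, mul_inv_cancel_right]
    constructor
    · intro hv
      rw [key v hv]
      exact hv
    · intro hv
      have h2 := key _ hv
      have e : v = x * v * x⁻¹ := by
        have h3 : x * v * x⁻¹ = v := by
          have := mul_left_cancel (mul_right_cancel h2)
          exact this
        exact h3.symm
      rw [e]
      exact hv
  haveI hC'n : (C.subgroupOf N₁).Normal := by
    refine ⟨fun c hc n => ?_⟩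
    rw [Subgroup.mem_subgroupOf] at hc ⊢
    rw [hCmem] at hc ⊢
    intro v hv
    have hv' : (n : G)⁻¹ * v * (n : G) ∈ Q₁ := by
      refine (((hN₁mem (n : G)).mp n.2) ((n : G)⁻¹ * v * (n : G))).mpr ?_
      have e : (n : G) * ((n : G)⁻¹ * v * (n : G)) * (n : G)⁻¹ = v := by group
      rw [e]
      exact hv
    have h1 := hc _ hv'
    show v * ((n : G) * (c : G) * (n : G)⁻¹) = (n : G) * (c : G) * (n : G)⁻¹ * v
    calc v * ((n : G) * (c : G) * (n : G)⁻¹)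
        = (n : G) * (((n : G)⁻¹ * v * (n : G)) * (c : G)) * (n : G)⁻¹ := by group
      _ = (n : G) * ((c : G) * ((n : G)⁻¹ * v * (n : G))) * (n : G)⁻¹ := by rw [h1]
      _ = (n : G) * (c : G) * (n : G)⁻¹ * v := by group
  obtain ⟨P₀⟩ : Nonempty (Sylow p ↥(C.subgroupOf N₁)) := inferInstance
  have hFr := Sylow.normalizer_sup_eq_top P₀
  obtain ⟨D₀, hD₀⟩ : ∃ D₀ : Subgroup ↥N₁,
      D₀ = (P₀ : Subgroup ↥(C.subgroupOf N₁)).map (C.subgroupOf N₁).subtype := ⟨_, rfl⟩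
  rw [← hD₀] at hFr
  obtain ⟨C₀, hC₀⟩ : ∃ C₀ : Subgroup G, C₀ = D₀.map N₁.subtype := ⟨_, rfl⟩
  have hC₀C : C₀ ≤ C := by
    rw [hC₀, hD₀]
    rintro _ ⟨_, ⟨x, -, rfl⟩, rfl⟩
    exact Subgroup.mem_subgroupOf.mp x.2
  have hC₀p : IsPGroup p ↥C₀ := by
    rw [hC₀, hD₀]
    exact (P₀.isPGroup'.map _).map _
  have hC₀N : C₀ ≤ Subgroup.normalizer (Q₁ : Set G) := by
    rw [← hN₁]
    exact hC₀C.trans hCN
  have hQp : IsPGroup p ↥(Q₁ ⊔ C₀) := IsPGroup.to_sup_of_normal_left' hQ₁pg hC₀p hC₀N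
  refine ⟨Q₁ ⊔ C₀, hQp, ?_, ?_⟩
  · -- `p`-centric
    intro x hx hxp
    obtain ⟨k, hk⟩ := hxp
    have hxc : ∀ w ∈ Q₁ ⊔ C₀, w * x = x * w := fun w hw =>
      Subgroup.mem_centralizer_iff.mp hx w hw
    have hxC : x ∈ C := (hCmem x).mpr (fun v hv => hxc v (Subgroup.mem_sup_left hv))
    have hxN : x ∈ N₁ := hCN hxC
    obtain ⟨xC, hxCv⟩ : ∃ xC : ↥(C.subgroupOf N₁), ((xC : ↥N₁) : G) = x :=
      ⟨⟨⟨x, hxN⟩, Subgroup.mem_subgroupOf.mpr hxC⟩, rfl⟩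
    have hcomm : ∀ y ∈ (P₀ : Subgroup ↥(C.subgroupOf N₁)), y * xC = xC * y := by
      intro y hy
      apply Subtype.ext
      apply Subtype.ext
      show ((y : ↥N₁) : G) * ((xC : ↥N₁) : G) = ((xC : ↥N₁) : G) * ((y : ↥N₁) : G)
      rw [hxCv]
      apply hxc
      apply Subgroup.mem_sup_right
      rw [hC₀, hD₀]
      exact ⟨_, ⟨y, hy, rfl⟩, rfl⟩
    have hxCpow : xC ^ p ^ k = 1 := by
      apply Subtype.ext
      apply Subtype.ext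
      show ((xC : ↥N₁) : G) ^ p ^ k = 1
      rw [hxCv]
      exact hk
    have hzp : IsPGroup p ↥(Subgroup.zpowers xC) := by
      rintro ⟨g, hg⟩
      obtain ⟨i, rfl⟩ := Subgroup.mem_zpowers_iff.mp hg
      refine ⟨k, Subtype.ext ?_⟩
      show (xC ^ i) ^ p ^ k = 1
      rw [← zpow_natCast, ← zpow_mul, mul_comm, zpow_mul, zpow_natCast, hxCpow, one_zpow]
    have hnorm : Subgroup.zpowers xC ≤
        Subgroup.normalizer ((P₀ : Subgroup ↥(C.subgroupOf N₁)) : Set ↥(C.subgroupOf N₁)) := by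
      rw [Subgroup.zpowers_le, Subgroup.mem_normalizer_iff]
      intro y
      constructor
      · intro hy
        rw [← hcomm y hy, mul_inv_cancel_right]
        exact hy
      · intro hy
        have h2 := hcomm _ hy
        have h3 : xC * y * xC⁻¹ = y := by
          have h4 : xC * y * xC⁻¹ * xC = xC * (xC * y * xC⁻¹) := h2
          have h5 : xC * y = xC * (xC * y * xC⁻¹) := by
            rw [← h4]
            group
          exact (mul_left_cancel h5).symm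
        rw [← h3]
        exact hy
    have hD : IsPGroup p ↥(Subgroup.zpowers xC ⊔ (P₀ : Subgroup ↥(C.subgroupOf N₁))) :=
      IsPGroup.to_sup_of_normal_right' hzp P₀.isPGroup' hnorm
    have hmax := P₀.is_maximal' hD le_sup_right
    have hxP : xC ∈ (P₀ : Subgroup ↥(C.subgroupOf N₁)) := by
      have hxD : xC ∈ Subgroup.zpowers xC ⊔ (P₀ : Subgroup ↥(C.subgroupOf N₁)) :=
        Subgroup.mem_sup_left (Subgroup.mem_zpowers xC)
      rw [hmax] at hxD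
      exact hxD
    apply Subgroup.mem_sup_right
    rw [hC₀, hD₀, ← hxCv]
    exact ⟨_, ⟨xC, hxP, rfl⟩, rfl⟩
  · -- the data
    refine ⟨Q₁, θ, le_sup_left, hQ₁p, hadd, hsurj, ?_⟩
    intro A
    obtain ⟨g, -, hg, hgA⟩ := hA A
    have hgN : g ∈ N₁ := by
      rw [hN₁mem]
      intro v
      refine ⟨hg v, fun h => ?_⟩
      have h1 := conj_inv_mem Q₁ g hg _ h
      have e : g⁻¹ * (g * v * g⁻¹) * g = v := by group
      rwa [e] at h1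
    have hg' : (⟨g, hgN⟩ : ↥N₁) ∈ ((Subgroup.normalizer (D₀ : Set ↥N₁) ⊔ C.subgroupOf N₁ :
        Subgroup ↥N₁) : Set ↥N₁) := by
      rw [hFr]
      exact Subgroup.mem_top _
    rw [Subgroup.mul_normal] at hg'
    obtain ⟨n, hn, c, hc, hnc⟩ := Set.mem_mul.mp hg'
    have hcC : (c : G) ∈ C := Subgroup.mem_subgroupOf.mp hc
    have hgnc : g = (n : G) * (c : G) := (congrArg Subtype.val hnc).symm
    have hact : ∀ v ∈ Q₁, (n : G) * v * (n : G)⁻¹ = g * v * g⁻¹ := by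
      intro v hv
      have h1 := (hCmem _).mp hcC v hv
      rw [hgnc]
      calc (n : G) * v * (n : G)⁻¹ = (n : G) * (v * (c : G) * (c : G)⁻¹) * (n : G)⁻¹ := by group
        _ = (n : G) * ((c : G) * v * (c : G)⁻¹) * (n : G)⁻¹ := by rw [h1]
        _ = (n : G) * (c : G) * v * ((n : G) * (c : G))⁻¹ := by group
    have hnQ₁ : ∀ v ∈ Q₁, (n : G) * v * (n : G)⁻¹ ∈ Q₁ := fun v hv => by
      rw [hact v hv]
      exact hg v hv
    have hnQ₁' : ∀ v ∈ Q₁, (n : G)⁻¹ * v * (n : G) ∈ Q₁ := conj_inv_mem Q₁ _ hnQ₁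
    have hnD : ∀ d ∈ D₀, n * d * n⁻¹ ∈ D₀ := fun d hd =>
      (Subgroup.mem_normalizer_iff.mp hn d).mp hd
    have hnD' : ∀ d ∈ D₀, n⁻¹ * d * n ∈ D₀ := fun d hd => by
      have h1 := (Subgroup.mem_normalizer_iff.mp
        ((Subgroup.normalizer (D₀ : Set ↥N₁)).inv_mem hn) d).mp hd
      rwa [inv_inv] at h1
    have hnC₀ : ∀ v ∈ C₀, (n : G) * v * (n : G)⁻¹ ∈ C₀ := by
      intro v hv
      rw [hC₀] at hv ⊢
      obtain ⟨d, hd, rfl⟩ := hv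
      exact ⟨n * d * n⁻¹, hnD d hd, rfl⟩
    have hnC₀' : ∀ v ∈ C₀, (n : G)⁻¹ * v * (n : G) ∈ C₀ := by
      intro v hv
      rw [hC₀] at hv ⊢
      obtain ⟨d, hd, rfl⟩ := hv
      exact ⟨n⁻¹ * d * n, hnD' d hd, rfl⟩
    refine ⟨(n : G), mem_normalizer_sup Q₁ C₀ _ hnQ₁ hnQ₁' hnC₀ hnC₀', hnQ₁, ?_⟩
    intro v
    have e : (⟨(n : G) * v * (n : G)⁻¹, hnQ₁ v v.2⟩ : ↥Q₁) = ⟨g * v * g⁻¹, hg v v.2⟩ :=
      Subtype.ext (hact v v.2)
    rw [e, hgA]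

end Cfsg.Agent.Lib.Helper9.QdData
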