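import Mathlib
import Cfsg.Prelude.Def_PLocal
import Cfsg.Prelude.Def_LocalEven
import Cfsg.Agent.Lib.Helper9.QdBuild
import Cfsg.Agent.Lib.Helper9.QdData

/-!
# A commutator criterion for `Qd(p)`-freeness (helper9)

`not_involves_of_comm`: if for every nontrivial `p`-subgroup `T` of the finite group `G` all
commutators of elements of `N_G(T)` have order dividing `p` (`p` odd), then `Qd(p)` is not involved
in `G`.  (In `SL₂(p)` the element `-1` is a commutator.)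
-/

set_option autoImplicit false
open scoped MatrixGroups

namespace Cfsg.Agent.Lib.Helper9.QdComm

open Cfsg Cfsg.Agent.Lib.Helper9.QdBuild Cfsg.Agent.Lib.Helper9.QdData

/-- two elements of `SL₂(p)` whose commutator acts as `-1` -/
theorem exists_comm_neg_one (p : ℕ) [Fact p.Prime] :
    ∃ i j : Matrix.SpecialLinearGroup (Fin 2) (ZMod p),
      ∀ w : Fin 2 → ZMod p, (i * j * i⁻¹ * j⁻¹).1.mulVec w = -w := by
  obtain ⟨a, b, hab⟩ := ZMod.sq_add_sq p (-1)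
  let i : Matrix.SpecialLinearGroup (Fin 2) (ZMod p) :=
    ⟨!![0, 1; -1, 0], by rw [Matrix.det_fin_two_of]; ring⟩
  let j : Matrix.SpecialLinearGroup (Fin 2) (ZMod p) :=
    ⟨!![a, b; b, -a], by rw [Matrix.det_fin_two_of]; linear_combination -hab⟩
  refine ⟨i, j, fun w => ?_⟩
  have h1 : (i * j).1 = -(j * i).1 := by
    show (!![0, 1; -1, 0] : Matrix (Fin 2) (Fin 2) (ZMod p)) * !![a, b; b, -a]
      = -(!![a, b; b, -a] * !![0, 1; -1, 0])
    rw [Matrix.mul_fin_two, Matrix.mul_fin_two]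
    ext r s
    fin_cases r <;> fin_cases s <;> simp
  have h2 : i * j * i⁻¹ * j⁻¹ * (j * i) = i * j := by group
  have h3 : (i * j * i⁻¹ * j⁻¹).1 * (j * i).1 = -(j * i).1 := by
    have h2' : (i * j * i⁻¹ * j⁻¹ * (j * i)).1 = (i * j).1 := congrArg Subtype.val h2
    rw [← h1]
    exact h2'
  have h4 : (i * j * i⁻¹ * j⁻¹).1 = -1 := by
    have h5 : (j * i).1 * ((j * i)⁻¹).1 = 1 := by
      have : ((j * i) * (j * i)⁻¹).1 = 1 := by rw [mul_inv_cancel]; rfl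
      exact this
    calc (i * j * i⁻¹ * j⁻¹).1 = (i * j * i⁻¹ * j⁻¹).1 * ((j * i).1 * ((j * i)⁻¹).1) := by
          rw [h5, mul_one]
      _ = -(j * i).1 * ((j * i)⁻¹).1 := by rw [← mul_assoc, h3]
      _ = -1 := by rw [neg_mul, h5]
  rw [h4, Matrix.neg_mulVec, Matrix.one_mulVec]

theorem not_involves_of_comm {G : Type*} [Group G] [Finite G] {p : ℕ} [Fact p.Prime] (hp : p ≠ 2)
    (h : ∀ T : Subgroup G, T ≠ ⊥ → (∀ t ∈ T, ∃ k : ℕ, t ^ p ^ k = 1) →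
      ∀ g ∈ Subgroup.normalizer (T : Set G), ∀ k ∈ Subgroup.normalizer (T : Set G),
        (g * k * g⁻¹ * k⁻¹) ^ p = 1) :
    ¬ Cfsg.Involves ↥(Cfsg.qd p) G := by
  intro hinv
  have hpp : p.Prime := Fact.out
  obtain ⟨Q₁, θ, -, hQ₁p, hadd, hsurj, hA⟩ := data_of_onto (p := p) (Onto.of_involves hinv)
  have hθ1 : θ 1 = 0 := by
    have h1 := hadd 1 1
    rw [mul_one] at h1
    have h2 : θ 1 + 0 = θ 1 + θ 1 := by rw [add_zero]; exact h1
    exact (add_left_cancel h2).symm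
  have hne : Q₁ ≠ ⊥ := by
    rintro rfl
    obtain ⟨v, hv⟩ := hsurj ![1, 0]
    have hv1 : v = 1 := Subtype.ext (Subgroup.mem_bot.mp v.2)
    rw [hv1, hθ1] at hv
    have h0 := congrFun hv 0
    simp at h0
  -- the relation "conjugation by `g` induces `A`"
  obtain ⟨R, hR⟩ : ∃ R : G → Matrix.SpecialLinearGroup (Fin 2) (ZMod p) → Prop,
      ∀ g A, R g A ↔ ∃ hg : ∀ v ∈ Q₁, g * v * g⁻¹ ∈ Q₁,
        ∀ v : ↥Q₁, θ ⟨g * v * g⁻¹, hg v v.2⟩ = A.1.mulVec (θ v) := ⟨_, fun _ _ => Iff.rfl⟩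
  have hRmul : ∀ g k A B, R g A → R k B → R (g * k) (A * B) := by
    intro g k A B hgA hkB
    rw [hR] at hgA hkB ⊢
    obtain ⟨hg, hgA⟩ := hgA
    obtain ⟨hk, hkB⟩ := hkB
    have e : ∀ v : G, g * k * v * (g * k)⁻¹ = g * (k * v * k⁻¹) * g⁻¹ := fun v => by group
    refine ⟨fun v hv => ?_, fun v => ?_⟩
    · rw [e]
      exact hg _ (hk v hv)
    · have e2 : (⟨g * k * v * (g * k)⁻¹, by rw [e]; exact hg _ (hk v v.2)⟩ : ↥Q₁)
          = ⟨g * ((⟨k * v * k⁻¹, hk v v.2⟩ : ↥Q₁) : G) * g⁻¹, hg _ (hk v v.2)⟩ :=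
        Subtype.ext (e v)
      rw [e2, hgA, hkB, Matrix.mulVec_mulVec]
      rfl
  have hRinv : ∀ g A, R g A → R g⁻¹ A⁻¹ := by
    intro g A hgA
    rw [hR] at hgA ⊢
    obtain ⟨hg, hgA⟩ := hgA
    have hg' := conj_inv_mem Q₁ g hg
    have hg'' : ∀ v ∈ Q₁, g⁻¹ * v * g⁻¹⁻¹ ∈ Q₁ := fun v hv => by
      rw [inv_inv]
      exact hg' v hv
    refine ⟨hg'', fun v => ?_⟩
    have h1 := hgA ⟨g⁻¹ * v * g⁻¹⁻¹, hg'' v v.2⟩
    have e : (⟨g * ((⟨g⁻¹ * v * g⁻¹⁻¹, hg'' v v.2⟩ : ↥Q₁) : G) * g⁻¹,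
        hg _ (hg'' v v.2)⟩ : ↥Q₁) = v := Subtype.ext (by
      show g * (g⁻¹ * (v : G) * g⁻¹⁻¹) * g⁻¹ = v
      group)
    rw [e] at h1
    rw [h1, Matrix.mulVec_mulVec]
    have h2 : (A⁻¹).1 * A.1 = 1 := by
      have : (A⁻¹ * A).1 = 1 := by rw [inv_mul_cancel]; rfl
      exact this
    rw [h2, Matrix.one_mulVec]
  have hRone : R 1 1 := by
    rw [hR]
    have h1 : ∀ v ∈ Q₁, (1 : G) * v * 1⁻¹ ∈ Q₁ := fun v hv => by
      rw [one_mul, inv_one, mul_one]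
      exact hv
    refine ⟨h1, fun v => ?_⟩
    have e : (⟨(1 : G) * v * 1⁻¹, h1 v v.2⟩ : ↥Q₁) = v := Subtype.ext (by
      show (1 : G) * (v : G) * 1⁻¹ = v
      rw [one_mul, inv_one, mul_one])
    rw [e]
    show θ v = (1 : Matrix (Fin 2) (Fin 2) (ZMod p)).mulVec (θ v)
    rw [Matrix.one_mulVec]
  have hRpow : ∀ g A, R g A → ∀ n : ℕ, R (g ^ n) (A ^ n) := by
    intro g A hgA n
    induction n with
    | zero =>
      rw [pow_zero, pow_zero]
      exact hRone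
    | succ n ih =>
      rw [pow_succ, pow_succ]
      exact hRmul _ _ _ _ ih hgA
  have hRnorm : ∀ g A, R g A → g ∈ Subgroup.normalizer (Q₁ : Set G) := by
    intro g A hgA
    rw [hR] at hgA
    obtain ⟨hg, -⟩ := hgA
    rw [Subgroup.mem_normalizer_iff]
    intro v
    refine ⟨hg v, fun h1 => ?_⟩
    have h2 := conj_inv_mem Q₁ g hg _ h1
    have e : g⁻¹ * (g * v * g⁻¹) * g = v := by group
    rwa [e] at h2
  obtain ⟨i, j, hij⟩ := exists_comm_neg_one p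
  obtain ⟨gi, -, hgi⟩ := hA i
  obtain ⟨gj, -, hgj⟩ := hA j
  have hRi : R gi i := (hR gi i).mpr hgi
  have hRj : R gj j := (hR gj j).mpr hgj
  have hc : R (gi * gj * gi⁻¹ * gj⁻¹) (i * j * i⁻¹ * j⁻¹) :=
    hRmul _ _ _ _ (hRmul _ _ _ _ (hRmul _ _ _ _ hRi hRj) (hRinv _ _ hRi)) (hRinv _ _ hRj)
  have hcp := hRpow _ _ hc p
  rw [h Q₁ hne hQ₁p gi (hRnorm _ _ hRi) gj (hRnorm _ _ hRj)] at hcp
  rw [hR] at hcp
  obtain ⟨h1, hcp⟩ := hcp
  -- `(C ^ p) w = - w`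
  have hpow : ∀ n : ℕ, ∀ w : Fin 2 → ZMod p,
      ((i * j * i⁻¹ * j⁻¹) ^ n).1.mulVec w = (-1 : ZMod p) ^ n • w := by
    intro n
    induction n with
    | zero =>
      intro w
      rw [pow_zero, pow_zero, one_smul]
      show (1 : Matrix (Fin 2) (Fin 2) (ZMod p)).mulVec w = w
      rw [Matrix.one_mulVec]
    | succ n ih =>
      intro w
      rw [pow_succ]
      show (((i * j * i⁻¹ * j⁻¹) ^ n).1 * (i * j * i⁻¹ * j⁻¹).1).mulVec w = _
      rw [← Matrix.mulVec_mulVec, hij, ih, pow_succ, smul_neg, mul_neg_one, neg_smul]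
  have hodd : Odd p := hpp.odd_of_ne_two hp
  have h2ne : (2 : ZMod p) ≠ 0 := by
    intro h2
    have h2' : ((2 : ℕ) : ZMod p) = 0 := by exact_mod_cast h2
    rw [ZMod.natCast_eq_zero_iff] at h2'
    have := Nat.le_of_dvd (by norm_num) h2'
    have := hpp.two_le
    omega
  have hzero : ∀ v : ↥Q₁, θ v = 0 := by
    intro v
    have h3 := hcp v
    have e : (⟨(1 : G) * v * 1⁻¹, h1 v v.2⟩ : ↥Q₁) = v := Subtype.ext (by
      show (1 : G) * (v : G) * 1⁻¹ = v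
      rw [one_mul, inv_one, mul_one])
    rw [e, hpow, hodd.neg_one_pow, neg_smul, one_smul] at h3
    funext r
    have h4 := congrFun h3 r
    have h5 : (2 : ZMod p) * θ v r = 0 := by
      have : θ v r = -θ v r := h4
      linear_combination this
    rcases mul_eq_zero.mp h5 with h6 | h6
    · exact absurd h6 h2ne
    · exact h6
  obtain ⟨v, hv⟩ := hsurj ![1, 0]
  rw [hzero v] at hv
  have h0 := congrFun hv 0
  simp at h0

end Cfsg.Agent.Lib.Helper9.QdComm
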